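import Cfsg.Agent.H961.TF8.Row
import Cfsg.Agent.H84.TF5.Nineteen

/-!
# S2452, `²F₄(8)`: the row from the key of helper315 (helper961)
-/

set_option autoImplicit false
set_option linter.unusedSectionVars false

namespace Cfsg.Agent.H961.TF8

open Cfsg Cfsg.Lie Cfsg.Agent.Characters Cfsg.Agent.H65.Ore Cfsg.Agent.H588.TW

/-- **`²F₄(8)`** from the key -/
theorem t52_eight_of_key {K : Type} [Field K] [Fintype K] (hK : Fintype.card K = 2 ^ (2 * 1 + 1))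
    [IsSimpleGroup ↥(twistedF4 K (2 ^ 1))] {y : ↥(twistedF4 K (2 ^ 1))} (hy : orderOf y = 35)
    (hkey : ∀ x : ↥(twistedF4 K (2 ^ 1)), orderOf x = 19 → ∃ S₀ : IrrCharacter ↥(twistedF4 K (2 ^ 1)),
      ∀ χ : IrrCharacter ↥(twistedF4 K (2 ^ 1)), (χ : ↥(twistedF4 K (2 ^ 1)) → ℂ) x ≠ 0 →
        (χ : ↥(twistedF4 K (2 ^ 1)) → ℂ) y ≠ 0 →
        (χ : ↥(twistedF4 K (2 ^ 1)) → ℂ) = (fun _ => 1) ∨ χ = S₀) : T52 ↥(twistedF4 K (2 ^ 1)) := by
  have hfin : Finite ↥(twistedF4 K (2 ^ 1)) := inferInstance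
  obtain ⟨⟨x, hx⟩, hcent⟩ := H84.TF5.nineteen (K := K) (by rw [hK]; norm_num)
  have hC := (hcent x hx).2
  have hL : IsLieTypeChar 2 ↥(twistedF4 K (2 ^ 1)) :=
    Or.inr (Or.inr (Or.inr (Or.inr (Or.inr (Or.inr (Or.inr (Or.inr (Or.inr (Or.inl ⟨rfl, K, _, _, 1, le_rfl, hK,
      ⟨MulEquiv.refl _⟩⟩)))))))))
  have hG : ¬ IsMulCommutative ↥(twistedF4 K (2 ^ 1)) := by
    intro hc
    have h1 : y ∈ Subgroup.centralizer ({x} : Set ↥(twistedF4 K (2 ^ 1))) :=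
      Subgroup.mem_centralizer_singleton_iff.2 (hc.is_comm.comm y x)
    have h2 := orderOf_dvd_natCard (⟨y, h1⟩ : Subgroup.centralizer ({x} : Set ↥(twistedF4 K (2 ^ 1))))
    rw [Subgroup.orderOf_mk, hy, hC] at h2
    exact absurd h2 (by norm_num)
  obtain ⟨S₀, h0⟩ := hkey x hx
  refine t52_of_key hG Nat.prime_two hL (x := x) (y := y) (by rw [hx]; norm_num) (by rw [hC]; norm_num)
    (Or.inr ⟨5, 7, by norm_num, by norm_num, by norm_num, by rw [hy]⟩) (by rw [hy]; norm_num)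
    (by rw [hx, hy]; norm_num) S₀ fun χ h1 h2 => ?_
  rcases h0 χ h1 h2 with h | h
  · exact Or.inl (Subtype.ext h)
  · exact Or.inr h

end Cfsg.Agent.H961.TF8
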