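import Cfsg.Agent.H588.TW.Defs
import Cfsg.Agent.H699.SpSixChar

/-!
# S2452, `²F₄(8)`: the abstract end (helper961)

`t52_of_two` : a simple group with `x` of order 19, `y` of order 35 such that only `1` and `st` do not vanish on both
satisfies `T52`, if `x` is conjugate to `x ^ 7`; `prd_inv_of_deg` : the same clause from a degree bound.
-/

set_option autoImplicit false
set_option linter.unusedSectionVars false

namespace Cfsg.Agent.H961.TF8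

open Cfsg Cfsg.Agent.Characters Cfsg.Agent.H65.Ore Cfsg.Agent.H588.TW
open scoped ComplexConjugate

universe u

variable {G : Type u} [Group G] [Finite G]

/-- only `1` and `st` do not vanish on both -/
theorem prd_of_two [Fintype (IrrCharacter G)] {x y g : G} (st : IrrCharacter G)
    (h0 : ∀ χ : IrrCharacter G, χ ≠ one1 G → χ ≠ st → (χ : G → ℂ) x = 0 ∨ (χ : G → ℂ) y = 0)
    (hx : ‖(st : G → ℂ) x‖ ≤ 1) (hy : ‖(st : G → ℂ) y‖ ≤ 1) (hg : ‖(st : G → ℂ) g‖ < ‖(st : G → ℂ) 1‖) :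
    Prd x y g := by
  classical
  apply prd_of_sum_lt
  rw [← Finset.add_sum_erase Finset.univ _ (Finset.mem_univ (one1 G))]
  simp only [one1_apply, norm_one, mul_one, div_one]
  have h1 : ∑ χ ∈ Finset.univ.erase (one1 G), ‖(χ : G → ℂ) x‖ * ‖(χ : G → ℂ) y‖ * ‖(χ : G → ℂ) g‖ / ‖(χ : G → ℂ) 1‖ ≤
      ∑ χ ∈ ({st} : Finset (IrrCharacter G)), ‖(χ : G → ℂ) x‖ * ‖(χ : G → ℂ) y‖ * ‖(χ : G → ℂ) g‖ /
        ‖(χ : G → ℂ) 1‖ := by
    rw [← Finset.sum_filter_add_sum_filter_not (Finset.univ.erase (one1 G)) (fun χ => χ = st)]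
    have h2 : ∑ χ ∈ (Finset.univ.erase (one1 G)).filter (fun χ => ¬ χ = st),
        ‖(χ : G → ℂ) x‖ * ‖(χ : G → ℂ) y‖ * ‖(χ : G → ℂ) g‖ / ‖(χ : G → ℂ) 1‖ = 0 := by
      refine Finset.sum_eq_zero fun χ hχ => ?_
      rw [Finset.mem_filter, Finset.mem_erase] at hχ
      rcases h0 χ hχ.1.1 hχ.2 with h | h <;> rw [h] <;> simp
    rw [h2, add_zero]
    refine Finset.sum_le_sum_of_subset_of_nonneg ?_ (fun _ _ _ => by positivity)
    intro χ hχ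
    rw [Finset.mem_filter] at hχ
    exact Finset.mem_singleton.2 hχ.2
  rw [Finset.sum_singleton] at h1
  have hpos : 0 < ‖(st : G → ℂ) 1‖ := (norm_nonneg _).trans_lt hg
  have h3 : ‖(st : G → ℂ) x‖ * ‖(st : G → ℂ) y‖ * ‖(st : G → ℂ) g‖ / ‖(st : G → ℂ) 1‖ < 1 := by
    rw [div_lt_one hpos]
    have h4 : ‖(st : G → ℂ) x‖ * ‖(st : G → ℂ) y‖ ≤ 1 := by
      nlinarith [norm_nonneg ((st : G → ℂ) x), norm_nonneg ((st : G → ℂ) y)]
    calc _ ≤ 1 * ‖(st : G → ℂ) g‖ := mul_le_mul_of_nonneg_right h4 (norm_nonneg _)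
      _ < _ := by rw [one_mul]; exact hg
  linarith

/-- the value of a nontrivial character of a simple group -/
theorem norm_lt_one [IsSimpleGroup G] (hp : commutator G = ⊤) (χ : IrrCharacter G) (hχ : χ ≠ one1 G) {g : G}
    (hg : g ≠ 1) : ‖(χ : G → ℂ) g‖ < ‖(χ : G → ℂ) 1‖ := by
  obtain ⟨d, -, hd⟩ := Core.isIrr_apply_one χ.2
  have h := H699.SpSix.norm_lt hp χ.2 (coe_ne_one hχ) hg hd
  rw [hd]
  simpa using h

theorem commutator_eq_top [IsSimpleGroup G] (hG : ¬ IsMulCommutative G) : commutator G = ⊤ := by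
  rcases (inferInstance : (commutator G).Normal).eq_bot_or_eq_top with h | h
  · exfalso
    refine hG ⟨⟨fun a b => ?_⟩⟩
    have h1 := (commutator_eq_bot_iff_center_eq_top G).1 h
    have h2 : a ∈ Subgroup.center G := by rw [h1]; exact Subgroup.mem_top a
    exact ((Subgroup.mem_center_iff.1 h2) b).symm
  · exact h

/-- `1 + 7 + 11 = 19` -/
theorem one_of_pow_seven {x w : G} (hx : orderOf x = 19) (h : w * x * w⁻¹ = x ^ 7) :
    ∃ u v w : G, (1 : G) = (u * x * u⁻¹) * (v * x * v⁻¹) * (w * x * w⁻¹) := by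
  have h19 : x ^ 19 = 1 := by rw [← hx]; exact pow_orderOf_eq_one x
  have h49 : w * w * x * (w * w)⁻¹ = x ^ 11 := by
    have h1 : w * (x ^ 7) * w⁻¹ = (x ^ 7) ^ 7 := by rw [← h, conj_pow, h]
    calc w * w * x * (w * w)⁻¹ = w * (w * x * w⁻¹) * w⁻¹ := by group
      _ = x ^ 49 := by rw [h, h1, ← pow_mul]
      _ = x ^ 11 * (x ^ 19) ^ 2 := by rw [← pow_mul, ← pow_add]
      _ = x ^ 11 := by rw [h19, one_pow, mul_one]
  refine ⟨1, w, w * w, ?_⟩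
  rw [h49, h, one_mul, inv_one, mul_one]
  calc (1 : G) = x ^ 19 := h19.symm
    _ = x * x ^ 7 * x ^ 11 := by rw [← pow_succ', ← pow_add]

/-- `x⁻¹ ∈ x^G x^G` from a degree bound -/
theorem prd_inv_of_deg [Fintype (IrrCharacter G)] {x : G} {c D : ℝ}
    (hc : (Nat.card (Subgroup.centralizer ({x} : Set G)) : ℝ) ≤ c) (hD : 0 < D)
    (hd : ∀ χ : IrrCharacter G, χ ≠ one1 G → (χ : G → ℂ) x ≠ 0 → D ≤ ‖(χ : G → ℂ) 1‖) (h : c ^ 3 < D ^ 2) :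
    Prd x x x⁻¹ := by
  classical
  apply prd_of_sum_lt
  rw [← Finset.add_sum_erase Finset.univ _ (Finset.mem_univ (one1 G))]
  simp only [one1_apply, norm_one, mul_one, div_one]
  set C : ℝ := (Nat.card (Subgroup.centralizer ({x} : Set G)) : ℝ) with hCdef
  have hC1 : 1 ≤ C := by
    have h0 : 1 ≤ Nat.card (Subgroup.centralizer ({x} : Set G)) := Nat.card_pos
    rw [hCdef]
    exact_mod_cast h0
  have hsq := sum_erase_sq x
  have hb : ∀ χ ∈ Finset.univ.erase (one1 G), ‖(χ : G → ℂ) x‖ ≤ Real.sqrt C := by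
    intro χ hχ
    have h1 : ‖(χ : G → ℂ) x‖ ^ 2 ≤ C := by
      have h2 := Finset.single_le_sum (f := fun χ : IrrCharacter G => ‖(χ : G → ℂ) x‖ ^ 2)
        (fun _ _ => by positivity) hχ
      rw [hsq] at h2
      have h3 : ‖(χ : G → ℂ) x‖ ^ 2 ≤ C - 1 := h2
      linarith
    exact Real.le_sqrt_of_sq_le h1
  have h1 : ∑ χ ∈ Finset.univ.erase (one1 G), ‖(χ : G → ℂ) x‖ * ‖(χ : G → ℂ) x‖ * ‖(χ : G → ℂ) x⁻¹‖ /
      ‖(χ : G → ℂ) 1‖ ≤ ∑ χ ∈ Finset.univ.erase (one1 G), ‖(χ : G → ℂ) x‖ ^ 2 * (Real.sqrt C / D) := by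
    refine Finset.sum_le_sum fun χ hχ => ?_
    have h2 : ‖(χ : G → ℂ) x⁻¹‖ = ‖(χ : G → ℂ) x‖ := by
      rw [Core.isCharacter_apply_inv (Core.isIrr_isCharacter χ.2), Complex.norm_conj]
    rw [h2]
    by_cases h0 : (χ : G → ℂ) x = 0
    · rw [h0]; simp
    have h3 := hd χ (Finset.ne_of_mem_erase hχ) h0
    have h4 := hb χ hχ
    calc ‖(χ : G → ℂ) x‖ * ‖(χ : G → ℂ) x‖ * ‖(χ : G → ℂ) x‖ / ‖(χ : G → ℂ) 1‖
        = ‖(χ : G → ℂ) x‖ ^ 2 * (‖(χ : G → ℂ) x‖ / ‖(χ : G → ℂ) 1‖) := by ring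
      _ ≤ ‖(χ : G → ℂ) x‖ ^ 2 * (Real.sqrt C / D) := by gcongr
  rw [← Finset.sum_mul, hsq] at h1
  have h5 : (C - 1) * (Real.sqrt C / D) < 1 := by
    rw [mul_div_assoc', div_lt_one hD]
    have h6 : 0 ≤ Real.sqrt C := Real.sqrt_nonneg _
    have h7 : Real.sqrt C ^ 2 = C := Real.sq_sqrt (by linarith)
    by_contra hcon
    push Not at hcon
    have h8 : D ≤ C * Real.sqrt C := by nlinarith
    have h9 : D ^ 2 ≤ (C * Real.sqrt C) ^ 2 := pow_le_pow_left₀ hD.le h8 2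
    have h10 : (C * Real.sqrt C) ^ 2 = C ^ 3 := by rw [mul_pow, h7]; ring
    have h11 : C ^ 3 ≤ c ^ 3 := pow_le_pow_left₀ (by linarith) hc 3
    linarith
  have h12 : ∑ χ ∈ Finset.univ.erase (one1 G), ‖(χ : G → ℂ) x‖ * ‖(χ : G → ℂ) x‖ * ‖(χ : G → ℂ) x⁻¹‖ /
      ‖(χ : G → ℂ) 1‖ ≤ (C - 1) * (Real.sqrt C / D) := h1
  linarith

theorem one_of_prd_inv {x : G} (h : Prd x x x⁻¹) :
    ∃ u v w : G, (1 : G) = (u * x * u⁻¹) * (v * x * v⁻¹) * (w * x * w⁻¹) := by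
  obtain ⟨a, b, h⟩ := h
  exact ⟨a, b, 1, by rw [← h]; group⟩

/-- **The end.** -/
theorem t52_of_two [IsSimpleGroup G] (hG : ¬ IsMulCommutative G) (st : IrrCharacter G) (hst : st ≠ one1 G) {x y : G}
    (hx : (orderOf x).Prime) (hy1 : y ≠ 1)
    (hy : (orderOf y).Prime ∨ ∃ s₁ s₂ : ℕ, s₁.Prime ∧ s₂.Prime ∧ s₁ ≠ s₂ ∧ orderOf y = s₁ * s₂)
    (h0 : ∀ χ : IrrCharacter G, χ ≠ one1 G → χ ≠ st → (χ : G → ℂ) x = 0 ∨ (χ : G → ℂ) y = 0)
    (hsx : ‖(st : G → ℂ) x‖ ≤ 1) (hsy : ‖(st : G → ℂ) y‖ ≤ 1)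
    (h1 : ∃ u v w : G, (1 : G) = (u * x * u⁻¹) * (v * x * v⁻¹) * (w * x * w⁻¹)) : T52 G := by
  classical
  have : Finite (IrrCharacter G) := Core.finite_irr
  have := Fintype.ofFinite (IrrCharacter G)
  have hp := commutator_eq_top hG
  refine T52.of_pair hx hy (fun g hg => prd_of_two st h0 hsx hsy (norm_lt_one hp st hst hg)) ?_ h1
  -- `y ∈ x^G x^G`
  apply prd_of_sum_lt
  rw [← Finset.add_sum_erase Finset.univ _ (Finset.mem_univ (one1 G))]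
  simp only [one1_apply, norm_one, mul_one, div_one]
  have h2 : ∑ χ ∈ Finset.univ.erase (one1 G), ‖(χ : G → ℂ) x‖ * ‖(χ : G → ℂ) x‖ * ‖(χ : G → ℂ) y‖ / ‖(χ : G → ℂ) 1‖ ≤
      ∑ χ ∈ ({st} : Finset (IrrCharacter G)), ‖(χ : G → ℂ) x‖ * ‖(χ : G → ℂ) x‖ * ‖(χ : G → ℂ) y‖ /
        ‖(χ : G → ℂ) 1‖ := by
    rw [← Finset.sum_filter_add_sum_filter_not (Finset.univ.erase (one1 G)) (fun χ => χ = st)]
    have h2 : ∑ χ ∈ (Finset.univ.erase (one1 G)).filter (fun χ => ¬ χ = st),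
        ‖(χ : G → ℂ) x‖ * ‖(χ : G → ℂ) x‖ * ‖(χ : G → ℂ) y‖ / ‖(χ : G → ℂ) 1‖ = 0 := by
      refine Finset.sum_eq_zero fun χ hχ => ?_
      rw [Finset.mem_filter, Finset.mem_erase] at hχ
      rcases h0 χ hχ.1.1 hχ.2 with h | h <;> rw [h] <;> simp
    rw [h2, add_zero]
    refine Finset.sum_le_sum_of_subset_of_nonneg ?_ (fun _ _ _ => by positivity)
    intro χ hχ
    rw [Finset.mem_filter] at hχ
    exact Finset.mem_singleton.2 hχ.2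
  rw [Finset.sum_singleton] at h2
  have hlt := norm_lt_one hp st hst hy1
  have hpos : 0 < ‖(st : G → ℂ) 1‖ := (norm_nonneg _).trans_lt hlt
  have h3 : ‖(st : G → ℂ) x‖ * ‖(st : G → ℂ) x‖ * ‖(st : G → ℂ) y‖ / ‖(st : G → ℂ) 1‖ < 1 := by
    rw [div_lt_one hpos]
    have h4 : ‖(st : G → ℂ) x‖ * ‖(st : G → ℂ) x‖ ≤ 1 := by nlinarith [norm_nonneg ((st : G → ℂ) x)]
    calc _ ≤ 1 * ‖(st : G → ℂ) y‖ := mul_le_mul_of_nonneg_right h4 (norm_nonneg _)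
      _ < _ := by rw [one_mul]; exact hlt
  linarith

end Cfsg.Agent.H961.TF8
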