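import Cfsg.Agent.H961.TF8.Sq
import Cfsg.Agent.H713.Engine

/-!
# S2452, `²F₄(8)`: the degrees of a Harish-Chandra series with two members are divisible by 19 (helper961)
-/

set_option autoImplicit false
set_option linter.unusedSectionVars false

namespace Cfsg.Agent.H961.TF8

open Cfsg Cfsg.Agent.Characters Representation
open scoped ComplexConjugate

section Num

theorem zmod_sq : ∀ x y : ZMod 19, y ≠ 0 → x ^ 2 ≠ -y ^ 2 := by decide

/-- **the arithmetic** -/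
theorem dvd_of_rel {d₁ d₂ : ℕ} (p1 : 0 < d₁) (p2 : 0 < d₂) {β₁ β₂ : ℂ} (i1 : IsIntegral ℤ β₁) (i2 : IsIntegral ℤ β₂)
    (e1 : (d₁ : ℂ) * β₁ + d₂ * β₂ = 0) (e2 : (d₁ : ℂ) * β₁ ^ 2 + d₂ * β₂ ^ 2 = 2 ^ 30 * (d₁ + d₂))
    (h19 : 19 ∣ d₁ + d₂) {s : ℂ ≃+* ℂ} (hs2 : ∀ z : ℂ, z ^ 2 = 2 → s z = -z) (hs : s β₁ = β₁) : 19 ∣ d₁ := by
  have c1 : (d₁ : ℂ) ≠ 0 := by exact_mod_cast p1.ne'
  have c2 : (d₂ : ℂ) ≠ 0 := by exact_mod_cast p2.ne'
  have c3 : (d₁ : ℂ) + d₂ ≠ 0 := by exact_mod_cast (by omega : d₁ + d₂ ≠ 0)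
  have f1 : β₁ ^ 2 * d₁ = 2 ^ 30 * d₂ := by
    apply mul_right_cancel₀ c3
    linear_combination (d₂ : ℂ) * e2 - ((d₂ : ℂ) * β₂ - d₁ * β₁) * e1
  have f2 : β₂ ^ 2 * d₂ = 2 ^ 30 * d₁ := by
    apply mul_right_cancel₀ c3
    linear_combination (d₁ : ℂ) * e2 + ((d₂ : ℂ) * β₂ - d₁ * β₁) * e1
  obtain ⟨a, ha⟩ : ∃ a : ℤ, β₁ ^ 2 = a := by
    refine GaloisBasic.exists_int_of_isIntegral (i1.pow 2) ⟨2 ^ 30 * d₂ / d₁, ?_⟩
    push_cast
    rw [eq_div_iff c1]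
    exact f1
  obtain ⟨b, hb⟩ : ∃ b : ℤ, β₂ ^ 2 = b := by
    refine GaloisBasic.exists_int_of_isIntegral (i2.pow 2) ⟨2 ^ 30 * d₁ / d₂, ?_⟩
    push_cast
    rw [eq_div_iff c2]
    exact f2
  rw [ha] at f1
  rw [hb] at f2
  have g1 : a * d₁ = 2 ^ 30 * d₂ := by exact_mod_cast f1
  have g2 : b * d₂ = 2 ^ 30 * d₁ := by exact_mod_cast f2
  have q1 : (0 : ℤ) < d₁ := by exact_mod_cast p1
  have q2 : (0 : ℤ) < d₂ := by exact_mod_cast p2
  have hab : a * b = 2 ^ 60 := by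
    have h1 : (a * b) * ((d₁ : ℤ) * d₂) = 2 ^ 60 * ((d₁ : ℤ) * d₂) := by
      linear_combination (b * d₂) * g1 + (2 ^ 30 * (d₂ : ℤ)) * g2
    exact mul_right_cancel₀ (by positivity) h1
  have ha0 : 0 < a := by
    by_contra hcon
    push Not at hcon
    have h1 : a * d₁ ≤ 0 := mul_nonpos_of_nonpos_of_nonneg hcon q1.le
    rw [g1] at h1
    have h2 : (0 : ℤ) < 2 ^ 30 * d₂ := by positivity
    linarith
  obtain ⟨n, rfl⟩ : ∃ n : ℕ, a = n := ⟨a.toNat, (Int.toNat_of_nonneg ha0.le).symm⟩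
  have hdvd : n ∣ 2 ^ 60 := by
    have h1 : (n : ℤ) ∣ ((2 ^ 60 : ℕ) : ℤ) := ⟨b, by push_cast; exact hab.symm⟩
    exact_mod_cast h1
  obtain ⟨j, -, rfl⟩ := (Nat.dvd_prime_pow Nat.prime_two).1 hdvd
  by_contra hcon
  have hz1 : ((d₁ : ℕ) : ZMod 19) ≠ 0 := fun h => hcon ((ZMod.natCast_eq_zero_iff d₁ 19).1 h)
  have hz2 : ((d₂ : ℕ) : ZMod 19) = -(d₁ : ZMod 19) := by
    have h1 : ((d₁ + d₂ : ℕ) : ZMod 19) = 0 := (ZMod.natCast_eq_zero_iff _ 19).2 h19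
    push_cast at h1
    linear_combination h1
  have hz3 : ((2 ^ j : ℕ) : ZMod 19) = -(2 ^ 15) ^ 2 := by
    have : Fact (Nat.Prime 19) := ⟨by norm_num⟩
    have h1 : (2 ^ j * d₁ : ℕ) = 2 ^ 30 * d₂ := by exact_mod_cast g1
    have h2 := congrArg (fun n : ℕ => (n : ZMod 19)) h1
    simp only [Nat.cast_mul] at h2
    rw [hz2] at h2
    apply mul_right_cancel₀ hz1
    rw [h2]
    push_cast
    ring
  have h2z : (2 ^ 15 : ZMod 19) ≠ 0 := by decide
  rcases Nat.even_or_odd' j with ⟨i, rfl | rfl⟩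
  · refine zmod_sq (2 ^ i) (2 ^ 15) h2z ?_
    rw [← hz3]
    push_cast
    rw [← pow_mul]
    congr 1
    ring
  · have h0 : (2 : ℂ) ^ i ≠ 0 := pow_ne_zero _ two_ne_zero
    have h1 : (β₁ / 2 ^ i) ^ 2 = 2 := by
      rw [div_pow, ha, div_eq_iff (pow_ne_zero 2 h0)]
      push_cast
      ring
    have h2 := hs2 _ h1
    rw [map_div₀, hs, map_pow, map_ofNat, ← neg_div, div_left_inj' h0] at h2
    have h3 : β₁ = 0 := by linear_combination h2 / 2
    rw [h3] at ha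
    have h4 : ((2 ^ (2 * i + 1) : ℕ) : ℂ) = 0 := by
      have h5 := ha.symm
      rw [zero_pow two_ne_zero] at h5
      exact_mod_cast h5
    exact absurd h4 (Nat.cast_ne_zero.2 (by positivity))

/-- the automorphism -/
theorem exists_s {N : ℕ} (hN : N ≠ 0) (hc : Nat.Coprime 5461 N) :
    ∃ s : ℂ ≃+* ℂ, (∀ z : ℂ, z ^ N = 1 → s z = z ^ 5461) ∧ ∀ z : ℂ, z ^ 2 = 2 → s z = -z := by
  obtain ⟨s, hs⟩ := GaloisBasic.exists_ringEquiv_pow (n := 8 * N) (m := 5461) (by omega)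
    (Nat.Coprime.mul_right (by norm_num) hc)
  refine ⟨s, fun z hz => hs z (by rw [mul_comm, pow_mul, hz, one_pow]), fun z hz => ?_⟩
  obtain ⟨ζ, hζ⟩ := IsAlgClosed.exists_pow_nat_eq (-1 : ℂ) (n := 4) (by norm_num)
  have h8 : ζ ^ 8 = 1 := by rw [show 8 = 4 * 2 by norm_num, pow_mul, hζ]; norm_num
  have h1 : s ζ = -ζ := by
    rw [hs ζ (by rw [pow_mul, h8, one_pow])]
    have : ζ ^ 5461 = (ζ ^ 8) ^ 682 * ζ ^ 4 * ζ := by ring
    rw [this, h8, hζ]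
    ring
  set r := ζ - ζ ^ 3 with hr
  have h2 : r ^ 2 = 2 := by
    rw [hr]
    linear_combination (ζ ^ 2 - 2) * hζ
  have h3 : s r = -r := by
    rw [hr, map_sub, map_pow, h1]
    ring
  have h4 : (z - r) * (z + r) = 0 := by linear_combination hz - h2
  rcases mul_eq_zero.1 h4 with h | h
  · rw [sub_eq_zero.1 h]; exact h3
  · rw [eq_neg_of_add_eq_zero_left h, map_neg, h3]

end Num

section Main

variable {G : Type*} [Group G] [Fintype G] {P U L : Subgroup G} {w : G}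

theorem ker_mul (F : Frame P U L w) {ψ : P → ℂ} (hψ : IsIrrCharacter P ψ) (hK : Ker F ψ) (p u : P)
    (hu : (u : G) ∈ U) : ψ (p * u) = ψ p := by
  obtain ⟨m, τ, hτ, rfl⟩ := hψ
  have h : τ u = 1 := tau_of_ker (hK.one u hu)
  show τ.character (p * u) = τ.character p
  unfold Representation.character
  rw [map_mul, h, mul_one]

/-- **The theorem**: the degrees of a Harish-Chandra series `{χ₁, χ₂}`. -/
theorem nineteen_dvd (F : Frame P U L w) (hexp : ∀ p ∈ P, p ^ 1820 ∈ U) (hcU : Nat.card U = 2 ^ 30)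
    (h19 : 19 ∣ P.index) (hcop : Nat.Coprime 5461 (Nat.card G)) {ψ : P → ℂ} (hψ : IsIrrCharacter P ψ)
    (hK : Ker F ψ) {χ₁ χ₂ : IrrCharacter G} (hind : indFun P ψ = (χ₁ : G → ℂ) + (χ₂ : G → ℂ)) :
    19 ∣ charDegree (χ₁ : G → ℂ) := by
  classical
  have : Finite (IrrCharacter G) := Core.finite_irr
  have := Fintype.ofFinite (IrrCharacter G)
  have := Fintype.ofFinite P
  have := Fintype.ofFinite U
  have hd₁ := Blocks.Basic.irr_one_eq_charDegree χ₁.2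
  have hd₂ := Blocks.Basic.irr_one_eq_charDegree χ₂.2
  set d₁ := charDegree (χ₁ : G → ℂ) with hd₁def
  set d₂ := charDegree (χ₂ : G → ℂ) with hd₂def
  have hp1 : 0 < d₁ := by
    obtain ⟨n, hn, h⟩ := Core.isIrr_apply_one χ₁.2
    rw [hd₁] at h
    have : d₁ = n := by exact_mod_cast h
    omega
  have hp2 : 0 < d₂ := by
    obtain ⟨n, hn, h⟩ := Core.isIrr_apply_one χ₂.2
    rw [hd₂] at h
    have : d₂ = n := by exact_mod_cast h
    omega
  obtain ⟨c, -, hc⟩ := Core.isIrr_apply_one hψ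
  have hsum : d₁ + d₂ = P.index * c := by
    have h1 := congrFun hind 1
    rw [OddOrderCharacters.IndRes.indFun_apply_one, Pi.add_apply, hd₁, hd₂, hc] at h1
    exact_mod_cast h1.symm
  have h19' : 19 ∣ d₁ + d₂ := by
    rw [hsum]
    exact Dvd.dvd.mul_right h19 c
  -- multiplicities
  have hmult : ∀ χ : IrrCharacter G, classInner (fun p : P => (χ : G → ℂ) p) ψ =
      (if χ = χ₁ then 1 else 0) + (if χ = χ₂ then 1 else 0) := by
    intro χ
    have h1 := OddOrderCharacters.IndRes.classInner_indFun_right P ψ (Core.isIrr_isClassFunction χ.2)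
    rw [hind, Core.classInner_add_right] at h1
    have h2 : ∀ χ' : IrrCharacter G, classInner (χ : G → ℂ) (χ' : G → ℂ) = if χ = χ' then 1 else 0 := by
      intro χ'
      split_ifs with h
      · rw [h]; exact Core.classInner_irr_self χ'.2
      · exact Core.classInner_irr_ne χ.2 χ'.2 fun h' => h (Subtype.ext h')
    rw [h2, h2] at h1
    exact h1.symm
  rcases eq_or_ne χ₁ χ₂ with heq | hne
  · have h1 : d₁ = d₂ := by rw [hd₁def, hd₂def, heq]
    rw [← h1] at h19'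
    omega
  have hm1 : classInner (fun p : P => (χ₁ : G → ℂ) p) ψ = 1 := by
    rw [hmult, if_pos rfl, if_neg hne, add_zero]
  have hm2 : classInner (fun p : P => (χ₂ : G → ℂ) p) ψ = 1 := by
    rw [hmult, if_neg hne.symm, if_pos rfl, zero_add]
  obtain ⟨β₁, i1, a1, b1⟩ := pack_one (U := U) F hψ hK χ₁.2 hm1
  obtain ⟨β₂, i2, a2, b2⟩ := pack_one (U := U) F hψ hK χ₂.2 hm2
  have hP0 : (Nat.card P : ℂ) ≠ 0 := by exact_mod_cast Nat.card_pos.ne'
  have hzero : ∀ χ : IrrCharacter G, χ ≠ χ₁ ∧ χ ≠ χ₂ → S₁ (U := U) w ψ χ = 0 ∧ S₂ (U := U) w ψ χ = 0 := by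
    intro χ hχ
    refine pack_zero hψ χ.2 ?_
    rw [hmult, if_neg hχ.1, if_neg hχ.2, add_zero]
  have e1 : (d₁ : ℂ) * β₁ + d₂ * β₂ = 0 := by
    have h1 := sum_S₁ (U := U) F ψ
    rw [Fintype.sum_eq_add χ₁ χ₂ hne fun χ hχ => by rw [(hzero χ hχ).1, mul_zero], a1, a2, hd₁, hd₂] at h1
    apply mul_left_cancel₀ hP0
    linear_combination h1
  have e2 : (d₁ : ℂ) * β₁ ^ 2 + d₂ * β₂ ^ 2 = 2 ^ 30 * (d₁ + d₂) := by
    have h1 := sum_S₂ (U := U) F hK
    rw [Fintype.sum_eq_add χ₁ χ₂ hne fun χ hχ => by rw [(hzero χ hχ).2, mul_zero], b1, b2, hd₁, hd₂, hcU] at h1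
    have h2 : ((Nat.card G : ℕ) : ℂ) = Nat.card P * P.index := by exact_mod_cast P.card_mul_index.symm
    have h3 : ((d₁ : ℂ) + d₂) = P.index * c := by exact_mod_cast hsum
    rw [h2, hc] at h1
    apply mul_left_cancel₀ hP0
    push_cast at h1
    linear_combination h1 + (-(Nat.card P : ℂ) * 2 ^ 30) * h3
  obtain ⟨s, hs, hs2⟩ := exists_s Nat.card_pos.ne' hcop
  have hsχ : ∀ (χ : G → ℂ), IsCharacter G χ → ∀ g, s (χ g) = χ (g ^ 5461) := fun χ hχ g =>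
    GaloisBasic.map_apply_card s hs hχ g
  have hsψ : ∀ p : P, s (ψ p) = ψ p := by
    intro p
    have h1 : s (ψ p) = ψ (p ^ 5461) := GaloisBasic.map_apply (s : ℂ →+* ℂ) hs (Core.isIrr_isCharacter hψ)
      Nat.card_pos.ne' (Subtype.ext (by
        show (p : G) ^ Nat.card G = 1
        exact pow_card_eq_one'))
    have h2 : p ^ 5461 = p * (p ^ 1820) ^ 3 := by rw [← pow_mul, ← pow_succ']
    rw [h1, h2]
    refine ker_mul F hψ hK p _ ?_
    show ((p : G) ^ 1820) ^ 3 ∈ U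
    exact U.pow_mem (hexp p p.2) 3
  -- `s` fixes `χ₁`, or the degrees are equal
  let χ' : IrrCharacter G := ⟨fun g => s ((χ₁ : G → ℂ) g), GaloisIrr.isIrr_map s χ₁.2⟩
  have hdeg' : (χ' : G → ℂ) 1 = d₁ := by
    show s ((χ₁ : G → ℂ) 1) = d₁
    rw [hd₁, map_natCast]
  have hmem : χ' = χ₁ ∨ χ' = χ₂ := by
    by_contra hcon
    push Not at hcon
    have h1 := hmult χ'
    rw [if_neg hcon.1, if_neg hcon.2, add_zero] at h1
    have h2 : (fun p : P => (χ' : G → ℂ) p) = fun p : P => s ((fun p : P => (χ₁ : G → ℂ) p) p) := rfl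
    have h3 : ψ = fun p => s (ψ p) := funext fun p => (hsψ p).symm
    rw [h2, h3, GaloisIrr.classInner_map s (Core.isIrr_isCharacter hψ), hm1, map_one] at h1
    exact one_ne_zero h1
  rcases hmem with h | h
  · have hfix : ∀ g, s ((χ₁ : G → ℂ) g) = (χ₁ : G → ℂ) g := fun g => congrFun (congrArg Subtype.val h) g
    have hsβ : s β₁ = β₁ := by
      have h1 : s (S₁ (U := U) w ψ χ₁) = S₁ (U := U) w ψ χ₁ := by
        unfold S₁
        rw [map_sum]
        refine Finset.sum_congr rfl fun p _ => ?_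
        rw [map_sum]
        refine Finset.sum_congr rfl fun u _ => ?_
        rw [map_mul, hsψ, hfix]
      rw [a1, map_mul, map_natCast] at h1
      exact mul_left_cancel₀ hP0 h1
    exact dvd_of_rel hp1 hp2 i1 i2 e1 e2 h19' hs2 hsβ
  · have h1 : d₁ = d₂ := by
      have h2 : (χ' : G → ℂ) 1 = (χ₂ : G → ℂ) 1 := by rw [h]
      rw [hdeg', hd₂] at h2
      exact_mod_cast h2
    rw [← h1] at h19'
    omega

end Main

end Cfsg.Agent.H961.TF8
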