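import Cfsg.Agent.H961.TF8.Fin
import Cfsg.Agent.H727.TC.Row3
import Cfsg.Agent.H686.CharKit

/-!
# S2452, `²F₄(8)`: `T52` from two survivors, with the cube clause from Gow's theorem (helper961)
-/

set_option autoImplicit false
set_option linter.unusedSectionVars false

namespace Cfsg.Agent.H961.TF8

open Cfsg Cfsg.Agent.Characters Cfsg.Agent.H65.Ore Cfsg.Agent.H588.TW
open scoped ComplexConjugate

universe u

variable {G : Type u} [Group G] [Finite G]

/-- only `1` and `st` do not vanish on both; the product form -/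
theorem prd_of_two' [Fintype (IrrCharacter G)] {x y g : G} (st : IrrCharacter G)
    (h0 : ∀ χ : IrrCharacter G, χ ≠ one1 G → χ ≠ st → (χ : G → ℂ) x = 0 ∨ (χ : G → ℂ) y = 0)
    (hxy : ‖(st : G → ℂ) x‖ * ‖(st : G → ℂ) y‖ ≤ 1) (hg : ‖(st : G → ℂ) g‖ < ‖(st : G → ℂ) 1‖) :
    Prd x y g := by
  classical
  apply prd_of_sum_lt
  rw [← Finset.add_sum_erase Finset.univ _ (Finset.mem_univ (one1 G))]
  simp only [one1_apply, norm_one, mul_one, div_one]
  have h1 : ∑ χ ∈ Finset.univ.erase (one1 G), ‖(χ : G → ℂ) x‖ * ‖(χ : G → ℂ) y‖ * ‖(χ : G → ℂ) g‖ / ‖(χ : G → ℂ) 1‖ ≤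
      ∑ χ ∈ ({st} : Finset (IrrCharacter G)), ‖(χ : G → ℂ) x‖ * ‖(χ : G → ℂ) y‖ * ‖(χ : G → ℂ) g‖ /
        ‖(χ : G → ℂ) 1‖ := by
    rw [← Finset.sum_filter_add_sum_filter_not (Finset.univ.erase (one1 G)) (fun χ => χ = st)]
    have h2 : ∑ χ ∈ (Finset.univ.erase (one1 G)).filter (fun χ => ¬ χ = st),
        ‖(χ : G → ℂ) x‖ * ‖(χ : G → ℂ) y‖ * ‖(χ : G → ℂ) g‖ / ‖(χ : G → ℂ) 1‖ = 0 := by
      refine Finset.sum_eq_zero fun χ hχ => ?_
      rw [Finset.mem_filter, Finset.mem_erase] at hχ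
      rcases h0 χ hχ.1.1 hχ.2 with h | h <;> rw [h] <;> simp
    rw [h2, add_zero]
    refine Finset.sum_le_sum_of_subset_of_nonneg ?_ (fun _ _ _ => by positivity)
    intro χ hχ
    rw [Finset.mem_filter] at hχ
    exact Finset.mem_singleton.2 hχ.2
  rw [Finset.sum_singleton] at h1
  have hpos : 0 < ‖(st : G → ℂ) 1‖ := (norm_nonneg _).trans_lt hg
  have h3 : ‖(st : G → ℂ) x‖ * ‖(st : G → ℂ) y‖ * ‖(st : G → ℂ) g‖ / ‖(st : G → ℂ) 1‖ < 1 := by
    rw [div_lt_one hpos]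
    calc _ ≤ 1 * ‖(st : G → ℂ) g‖ := mul_le_mul_of_nonneg_right hxy (norm_nonneg _)
      _ < _ := by rw [one_mul]; exact hg
  linarith

/-- column orthogonality -/
theorem norm_prod_le {x y : G} (hxy : ¬ IsConj x y) (st : IrrCharacter G)
    (h0 : ∀ χ : IrrCharacter G, χ ≠ one1 G → χ ≠ st → (χ : G → ℂ) x = 0 ∨ (χ : G → ℂ) y = 0) :
    st ≠ one1 G ∧ ‖(st : G → ℂ) x‖ * ‖(st : G → ℂ) y‖ ≤ 1 := by
  classical
  have : Finite (IrrCharacter G) := Core.finite_irr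
  have := Fintype.ofFinite (IrrCharacter G)
  have h := H686.CharKit.col_orth x y
  rw [if_neg hxy] at h
  have hz : ∀ χ : IrrCharacter G, χ ≠ one1 G → χ ≠ st → (χ : G → ℂ) x * conj ((χ : G → ℂ) y) = 0 := by
    intro χ h1 h2
    rcases h0 χ h1 h2 with h3 | h3 <;> rw [h3] <;> simp
  by_cases hst : st = one1 G
  · exfalso
    rw [Finset.sum_eq_single (one1 G) (fun χ _ h1 => hz χ h1 (by rwa [hst])) (fun h1 => absurd (Finset.mem_univ _) h1),
      one1_apply, one1_apply] at h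
    simp at h
  · refine ⟨hst, ?_⟩
    rw [Fintype.sum_eq_add (one1 G) st (Ne.symm hst) (fun χ h1 => hz χ h1.1 h1.2), one1_apply, one1_apply, map_one,
      mul_one] at h
    have h1 : (st : G → ℂ) x * conj ((st : G → ℂ) y) = -1 := by linear_combination h
    have h2 := congrArg norm h1
    rw [norm_mul, Complex.norm_conj, norm_neg, norm_one] at h2
    exact h2.le

/-- **The row from the key.** -/
theorem t52_of_key [IsSimpleGroup G] (hG : ¬ IsMulCommutative G) {p : ℕ} (hp : p.Prime) (hL : IsLieTypeChar p G)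
    {x y : G} (hx : (orderOf x).Prime) (hpx : ¬ p ∣ Nat.card (Subgroup.centralizer ({x} : Set G)))
    (hy : (orderOf y).Prime ∨ ∃ s₁ s₂ : ℕ, s₁.Prime ∧ s₂.Prime ∧ s₁ ≠ s₂ ∧ orderOf y = s₁ * s₂)
    (hpy : ¬ p ∣ orderOf y) (hxy : orderOf x ≠ orderOf y) (st : IrrCharacter G)
    (h0 : ∀ χ : IrrCharacter G, (χ : G → ℂ) x ≠ 0 → (χ : G → ℂ) y ≠ 0 → χ = one1 G ∨ χ = st) : T52 G := by
  classical
  have : Finite (IrrCharacter G) := Core.finite_irr
  have := Fintype.ofFinite (IrrCharacter G)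
  have hcomm := commutator_eq_top hG
  have hx1 : x ≠ 1 := by
    rintro rfl
    rw [orderOf_one] at hx
    exact absurd hx (by norm_num)
  have hy1 : y ≠ 1 := by
    rintro rfl
    rw [orderOf_one] at hy
    rcases hy with h | ⟨s₁, s₂, h1, h2, -, h⟩
    · exact absurd h (by norm_num)
    · have := Nat.Prime.two_le h1
      have := Nat.Prime.two_le h2
      nlinarith
  have hnc : ¬ IsConj x y := by
    intro h
    obtain ⟨c, rfl⟩ := isConj_iff.1 h
    apply hxy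
    rw [← MulAut.conj_apply]
    exact (MulEquiv.orderOf_eq (MulAut.conj c) x).symm
  have h0' : ∀ χ : IrrCharacter G, χ ≠ one1 G → χ ≠ st → (χ : G → ℂ) x = 0 ∨ (χ : G → ℂ) y = 0 := by
    intro χ h1 h2
    by_contra hcon
    push Not at hcon
    rcases h0 χ hcon.1 hcon.2 with h | h
    · exact h1 h
    · exact h2 h
  obtain ⟨hst, hle⟩ := norm_prod_le hnc st h0'
  have hcov : ∀ g : G, g ≠ 1 → ∃ u v : G, g = (u * x * u⁻¹) * (v * y * v⁻¹) := fun g hg =>
    prd_of_two' st h0' hle (norm_lt_one hcomm st hst hg)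
  exact ⟨x, y, hx, hy, hcov, H727.TC.cube_of_gow hp hL hpx hx1 hpy hy1 hcov⟩

end Cfsg.Agent.H961.TF8
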