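import Cfsg.Agent.Characters.Counting
import Cfsg.Agent.Characters.GaloisIrr
import Cfsg.Agent.Characters.Values
import Cfsg.Agent.OddOrderCharacters.IndRes

/-!
# S2452, `²F₄(8)`: the operator `∑ u w` on a Harish-Chandra series with two members (helper961)

* `scal` : `T` is a scalar on `Hom_P(τ, V)` if that space is one-dimensional; `comp_E`;
* `pack` : the scalar is an algebraic integer and its traces are character sums;
* `rel_one`, `rel_two` : `d₁ β₁ + d₂ β₂ = 0`, `d₁ β₁² + d₂ β₂² = |U| (d₁ + d₂)`.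
-/

set_option autoImplicit false
set_option linter.unusedSectionVars false

namespace Cfsg.Agent.H961.TF8

open Cfsg Cfsg.Agent.Characters Representation
open scoped ComplexConjugate

section Rep

variable {G : Type*} [Group G] [Finite G] {P : Subgroup G}
  {V : Type*} [AddCommGroup V] [Module ℂ V] [FiniteDimensional ℂ V]
  {m : ℕ} (τ : Representation ℂ P (Fin m → ℂ)) (σ : Representation ℂ G V)

/-- equivariance -/
def Eqv (f : (Fin m → ℂ) →ₗ[ℂ] V) : Prop := ∀ (p : P) (x : Fin m → ℂ), f (τ p x) = σ p (f x)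

open Classical in
/-- the sum `∑ ψ(p⁻¹) p` -/
noncomputable def E [Fintype P] : Module.End ℂ V := ∑ p : P, τ.character p⁻¹ • σ (p : G)

/-- a matrix coefficient map -/
noncomputable def mc [Fintype P] (v : V) (j : Fin m) : (Fin m → ℂ) →ₗ[ℂ] V :=
  ∑ p : P, ((LinearMap.proj j : (Fin m → ℂ) →ₗ[ℂ] ℂ) ∘ₗ τ p⁻¹).smulRight (σ (p : G) v)

theorem mc_apply [Fintype P] (v : V) (j : Fin m) (x : Fin m → ℂ) :
    mc τ σ v j x = ∑ p : P, (τ p⁻¹ x) j • σ (p : G) v := by
  unfold mc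
  rw [LinearMap.sum_apply]
  rfl

theorem mc_eqv [Fintype P] (v : V) (j : Fin m) : Eqv τ σ (mc τ σ v j) := by
  intro p₀ x
  rw [mc_apply, mc_apply, map_sum]
  rw [← Equiv.sum_comp (Equiv.mulLeft p₀)]
  refine Finset.sum_congr rfl fun p _ => ?_
  rw [Equiv.coe_mulLeft, map_smul, ← Module.End.mul_apply (σ (p₀ : G)), ← map_mul, mul_inv_rev, map_mul,
    Module.End.mul_apply, ← Module.End.mul_apply (τ p₀⁻¹), ← map_mul, inv_mul_cancel, map_one, Module.End.one_apply,
    Subgroup.coe_mul]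

theorem E_apply [Fintype P] (v : V) : E τ σ v = ∑ j : Fin m, mc τ σ v j (Pi.single j 1) := by
  unfold E
  rw [LinearMap.sum_apply]
  simp only [mc_apply]
  rw [Finset.sum_comm]
  refine Finset.sum_congr rfl fun p _ => ?_
  rw [LinearMap.smul_apply, ← Finset.sum_smul]
  congr 1
  unfold Representation.character
  rw [LinearMap.trace_eq_matrix_trace ℂ (Pi.basisFun ℂ (Fin m)), Matrix.trace]
  refine Finset.sum_congr rfl fun j _ => ?_
  rw [Matrix.diag_apply, LinearMap.toMatrix_apply, Pi.basisFun_repr, Pi.basisFun_apply]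

theorem comp_E [Fintype P] {T : Module.End ℂ V} {β : ℂ} (h : ∀ f, Eqv τ σ f → ∀ x, T (f x) = β • f x) :
    T * E τ σ = β • E τ σ := by
  ext v
  rw [Module.End.mul_apply, LinearMap.smul_apply, E_apply, map_sum, Finset.smul_sum]
  exact Finset.sum_congr rfl fun j _ => h _ (mc_eqv τ σ v j) _

/-- `Hom_P(τ, V)` -/
theorem exists_gen [Fintype P] {ψ : P → ℂ} (hψ : ∀ p, ψ p = τ.character p)
    (h1 : classInner (fun p : P => σ.character (p : G)) ψ = 1) :
    ∃ f₀, Eqv τ σ f₀ ∧ f₀ ≠ 0 ∧ ∀ f, Eqv τ σ f → ∃ c : ℂ, f = c • f₀ := by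
  have hinv : Invertible (Nat.card P : ℂ) := invertibleOfNonzero (Nat.cast_ne_zero.2 Nat.card_pos.ne')
  have h2 := card_inv_mul_sum_char_mul_char_eq_finrank τ (σ.comp P.subtype : Representation ℂ P V)
  have h3 : (Module.finrank ℂ (IntertwiningMap τ (σ.comp P.subtype : Representation ℂ P V)) : ℂ) = 1 := by
    rw [← h2, ← h1]
    unfold classInner
    congr 1
    refine Finset.sum_congr rfl fun p _ => ?_
    congr 1
    rw [hψ]
    exact Core.isCharacter_apply_inv ⟨m, τ, rfl⟩ p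
  have h4 : Module.finrank ℂ (IntertwiningMap τ (σ.comp P.subtype : Representation ℂ P V)) = 1 := by exact_mod_cast h3
  obtain ⟨f₀, h5, h6⟩ := finrank_eq_one_iff'.1 h4
  refine ⟨f₀.toLinearMap, fun p x => IntertwiningMap.isIntertwining _ _ f₀ p x, fun h => h5 (IntertwiningMap.ext (by rw [h]; rfl)), ?_⟩
  intro f hf
  obtain ⟨c, hc⟩ := h6 (f.intertwiningMap_of_isIntertwiningMap τ (σ.comp P.subtype : Representation ℂ P V) hf)
  refine ⟨c, ?_⟩
  have h7 := congrArg (fun F => F.toLinearMap) hc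
  exact h7.symm

/-- zero multiplicity -/
theorem eqv_zero [Fintype P] {ψ : P → ℂ} (hψ : ∀ p, ψ p = τ.character p)
    (h1 : classInner (fun p : P => σ.character (p : G)) ψ = 0) {f : (Fin m → ℂ) →ₗ[ℂ] V} (hf : Eqv τ σ f) : f = 0 := by
  have hinv : Invertible (Nat.card P : ℂ) := invertibleOfNonzero (Nat.cast_ne_zero.2 Nat.card_pos.ne')
  have h2 := card_inv_mul_sum_char_mul_char_eq_finrank τ (σ.comp P.subtype : Representation ℂ P V)
  have h3 : (Module.finrank ℂ (IntertwiningMap τ (σ.comp P.subtype : Representation ℂ P V)) : ℂ) = 0 := by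
    rw [← h2, ← h1]
    unfold classInner
    congr 1
    refine Finset.sum_congr rfl fun p _ => ?_
    congr 1
    rw [hψ]
    exact Core.isCharacter_apply_inv ⟨m, τ, rfl⟩ p
  have h4 : Module.finrank ℂ (IntertwiningMap τ (σ.comp P.subtype : Representation ℂ P V)) = 0 := by exact_mod_cast h3
  have h5 := Module.finrank_zero_iff.1 h4
  have h6 := @Subsingleton.elim _ h5
    (f.intertwiningMap_of_isIntertwiningMap τ (σ.comp P.subtype : Representation ℂ P V) hf) 0
  exact congrArg (fun F => F.toLinearMap) h6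

/-- **integrality** -/
theorem integral_of {n : ℕ} (a : Fin n → G) {β : ℂ} {v : V} (hv : v ≠ 0) (h : ∑ i, σ (a i) v = β • v) :
    IsIntegral ℤ β := by
  classical
  have := Fintype.ofFinite G
  let N : Submodule ℤ V := Submodule.span ℤ (Set.range fun g : G => σ g v)
  refine isIntegral_of_smul_mem_submodule N ?_ ?_ β ?_
  · intro h0
    have h1 : σ 1 v ∈ N := Submodule.subset_span ⟨1, rfl⟩
    rw [h0, Submodule.mem_bot, map_one, Module.End.one_apply] at h1
    exact hv h1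
  · exact Submodule.fg_span (Set.finite_range _)
  · intro w hw
    refine Submodule.span_induction (p := fun w _ => β • w ∈ N) ?_ ?_ ?_ ?_ hw
    · rintro _ ⟨g, rfl⟩
      have h1 : β • σ g v = ∑ i, σ (g * a i) v := by
        rw [← map_smul, ← h, map_sum]
        exact Finset.sum_congr rfl fun i _ => by rw [map_mul, Module.End.mul_apply]
      show β • σ g v ∈ N
      rw [h1]
      exact N.sum_mem fun i _ => Submodule.subset_span ⟨g * a i, rfl⟩
    · rw [smul_zero]; exact N.zero_mem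
    · intro x y _ _ hx hy
      rw [smul_add]; exact N.add_mem hx hy
    · intro z x _ hx
      rw [smul_comm]; exact N.smul_mem z hx

end Rep

/-! ### the operator -/

section Op

variable {G : Type*} [Group G] [Finite G]

/-- the frame: `P = U L`, `w` normalises `L`, `w² = 1`, `P ∩ w U w = 1` -/
structure Frame (P U L : Subgroup G) (w : G) : Prop where
  hU : U ≤ P
  hL : L ≤ P
  fac : ∀ p ∈ P, ∃ u ∈ U, ∃ l ∈ L, p = u * l
  nrm : ∀ l ∈ L, ∀ u ∈ U, l * u * l⁻¹ ∈ U
  sq : w * w = 1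
  nmem : w ∉ P
  opp : ∀ u ∈ U, w * u * w ∈ P → u = 1
  wL : ∀ l ∈ L, w * l * w ∈ L

variable {P U L : Subgroup G} {w : G}

/-- the condition on the character -/
structure Ker (F : Frame P U L w) (ψ : P → ℂ) : Prop where
  one : ∀ u : P, (u : G) ∈ U → ψ u = ψ 1
  lev : ∀ k : P, (∃ l ∈ L, (k : G) = w * l * w * l⁻¹) → ψ k = ψ 1

variable {V : Type*} [AddCommGroup V] [Module ℂ V] [FiniteDimensional ℂ V]
  {m : ℕ} {τ : Representation ℂ P (Fin m → ℂ)} {σ : Representation ℂ G V}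

/-- `∑ u w` -/
noncomputable def T (σ : Representation ℂ G V) (U : Subgroup G) (w : G) [Fintype U] : Module.End ℂ V :=
  ∑ u : U, σ ((u : G) * w)

theorem tau_of_ker {k : P} (h : τ.character k = τ.character 1) : τ k = 1 := by
  have h1 := (Values.character_eq_finrank_iff τ k).1 (by rw [h, Representation.char_one])
  exact h1

theorem T_apply [Fintype U] (v : V) : T σ U w v = ∑ u : U, σ ((u : G) * w) v := by
  unfold T
  rw [LinearMap.sum_apply]

theorem T_left [Fintype U] (u₀ : U) (v : V) : σ (u₀ : G) (T σ U w v) = T σ U w v := by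
  rw [T_apply, map_sum, ← Equiv.sum_comp (Equiv.mulLeft u₀) (fun u : U => σ ((u : G) * w) v)]
  refine Finset.sum_congr rfl fun u _ => ?_
  rw [Equiv.coe_mulLeft, Subgroup.coe_mul, mul_assoc, map_mul σ (u₀ : G), Module.End.mul_apply]

theorem T_lev [Fintype U] (F : Frame P U L w) {l : G} (hl : l ∈ L) (v : V) :
    σ l (T σ U w v) = T σ U w (σ (w * l * w) v) := by
  let e : U ≃ U :=
    { toFun := fun u => ⟨l * u * l⁻¹, F.nrm l hl u u.2⟩
      invFun := fun u => ⟨l⁻¹ * u * l, by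
        have := F.nrm l⁻¹ (L.inv_mem hl) u u.2
        rwa [inv_inv] at this⟩
      left_inv := fun u => Subtype.ext (by show l⁻¹ * (l * u * l⁻¹) * l = u; group)
      right_inv := fun u => Subtype.ext (by show l * (l⁻¹ * u * l) * l⁻¹ = u; group) }
  rw [T_apply, map_sum, T_apply, ← Equiv.sum_comp e (fun u : U => σ ((u : G) * w) (σ (w * l * w) v))]
  refine Finset.sum_congr rfl fun u _ => ?_
  rw [← Module.End.mul_apply, ← map_mul, ← Module.End.mul_apply, ← map_mul]
  congr 2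
  show l * (u * w) = l * u * l⁻¹ * w * (w * l * w)
  have h : l * u * l⁻¹ * w * (w * l * w) = l * u * l⁻¹ * (w * w) * l * w := by group
  rw [h, F.sq]
  group

theorem T_eqv [Fintype U] (F : Frame P U L w) (hτ : Ker F τ.character) {f : (Fin m → ℂ) →ₗ[ℂ] V}
    (hf : Eqv τ σ f) : Eqv τ σ (T σ U w ∘ₗ f) := by
  intro p x
  obtain ⟨u, hu, l, hl, hp⟩ := F.fac p p.2
  have hlP : l ∈ P := F.hL hl
  have huP : u ∈ P := F.hU hu
  have hwl : w * l * w ∈ P := F.hL (F.wL l hl)
  have e1 : p = ⟨u, huP⟩ * ⟨l, hlP⟩ := Subtype.ext hp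
  have h1 : τ p = τ ⟨l, hlP⟩ := by
    rw [e1, map_mul, tau_of_ker (hτ.one ⟨u, huP⟩ hu), one_mul]
  have hk : w * l * w * l⁻¹ ∈ P := P.mul_mem hwl (P.inv_mem hlP)
  have h2 : τ ⟨w * l * w, hwl⟩ = τ ⟨l, hlP⟩ := by
    have e2 : (⟨w * l * w, hwl⟩ : P) = ⟨w * l * w * l⁻¹, hk⟩ * ⟨l, hlP⟩ := Subtype.ext (by
      show w * l * w = w * l * w * l⁻¹ * l
      group)
    rw [e2, map_mul, tau_of_ker (hτ.lev ⟨_, hk⟩ ⟨l, hl, rfl⟩), one_mul]
  show T σ U w (f (τ p x)) = σ p (T σ U w (f x))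
  have e3 : σ (p : G) = σ u * σ l := by rw [hp, map_mul]
  rw [e3, Module.End.mul_apply, T_lev F hl, T_left ⟨u, hu⟩, h1, ← h2, hf]

/-- **the scalar** -/
theorem exists_scal [Fintype P] [Fintype U] (F : Frame P U L w) {ψ : P → ℂ} (hψ : ∀ p, ψ p = τ.character p)
    (hK : Ker F ψ) (h1 : classInner (fun p : P => σ.character (p : G)) ψ = 1) :
    ∃ β : ℂ, IsIntegral ℤ β ∧ T σ U w * E τ σ = β • E τ σ := by
  obtain ⟨f₀, hf₀, hne, hgen⟩ := exists_gen τ σ hψ h1
  have hτ : Ker F τ.character := ⟨fun u hu => by rw [← hψ, ← hψ]; exact hK.one u hu,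
    fun k hk => by rw [← hψ, ← hψ]; exact hK.lev k hk⟩
  obtain ⟨β, hβ⟩ := hgen _ (T_eqv F hτ hf₀)
  have hβ' : ∀ x, T σ U w (f₀ x) = β • f₀ x := fun x => congrArg (fun F => F x) hβ
  refine ⟨β, ?_, comp_E τ σ fun f hf x => ?_⟩
  · obtain ⟨x, hx⟩ : ∃ x, f₀ x ≠ 0 := by
      by_contra hcon
      push Not at hcon
      exact hne (LinearMap.ext hcon)
    have e := Fintype.equivFin U
    refine integral_of σ (fun i => ((e.symm i : U) : G) * w) hx ?_
    rw [← hβ', T_apply]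
    exact Equiv.sum_comp e.symm (fun u : U => σ ((u : G) * w) (f₀ x))
  · obtain ⟨c, rfl⟩ := hgen f hf
    rw [LinearMap.smul_apply, map_smul, hβ', smul_comm]

theorem trace_E [Fintype P] {ψ : P → ℂ} (hψ : ∀ p, ψ p = τ.character p) (a : Module.End ℂ V) :
    LinearMap.trace ℂ V (a * E τ σ) = ∑ p : P, ψ p⁻¹ * LinearMap.trace ℂ V (a * σ p) := by
  unfold E
  rw [Finset.mul_sum, map_sum]
  refine Finset.sum_congr rfl fun p _ => ?_
  rw [mul_smul_comm, map_smul, smul_eq_mul, hψ]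

theorem trace_one_E [Fintype P] {ψ : P → ℂ} (hψ : ∀ p, ψ p = τ.character p) :
    LinearMap.trace ℂ V (E τ σ) = Nat.card P * classInner (fun p : P => σ.character (p : G)) ψ := by
  have h := trace_E (σ := σ) hψ 1
  rw [one_mul] at h
  rw [h]
  unfold classInner
  rw [← mul_assoc, mul_inv_cancel₀ (by exact_mod_cast Nat.card_pos.ne'), one_mul]
  refine Finset.sum_congr rfl fun p _ => ?_
  rw [one_mul, mul_comm]
  congr 1
  rw [hψ, hψ]
  exact Core.isCharacter_apply_inv ⟨m, τ, rfl⟩ p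

variable [Fintype P] [Fintype U]

/-- the first sum -/
noncomputable def S₁ (w : G) (ψ : P → ℂ) (χ : G → ℂ) : ℂ :=
  ∑ p : P, ∑ u : U, ψ p⁻¹ * χ ((u : G) * w * p)

/-- the second sum -/
noncomputable def S₂ (w : G) (ψ : P → ℂ) (χ : G → ℂ) : ℂ :=
  ∑ p : P, ∑ u : U, ∑ u' : U, ψ p⁻¹ * χ ((u : G) * w * (u' * w) * p)

theorem trace_T {ψ : P → ℂ} (hψ : ∀ p, ψ p = τ.character p) :
    LinearMap.trace ℂ V (T σ U w * E τ σ) = S₁ (U := U) w ψ σ.character := by
  rw [trace_E hψ]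
  unfold S₁
  refine Finset.sum_congr rfl fun p _ => ?_
  rw [← Finset.mul_sum]
  congr 1
  unfold T
  rw [Finset.sum_mul, map_sum]
  refine Finset.sum_congr rfl fun u _ => ?_
  rw [← map_mul]
  rfl

theorem trace_T2 {ψ : P → ℂ} (hψ : ∀ p, ψ p = τ.character p) :
    LinearMap.trace ℂ V (T σ U w * T σ U w * E τ σ) = S₂ (U := U) w ψ σ.character := by
  rw [trace_E hψ]
  unfold S₂
  refine Finset.sum_congr rfl fun p _ => ?_
  simp only [← Finset.mul_sum]
  congr 1
  unfold T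
  rw [Finset.sum_mul_sum, Finset.sum_mul, map_sum]
  refine Finset.sum_congr rfl fun u _ => ?_
  rw [Finset.sum_mul, map_sum]
  refine Finset.sum_congr rfl fun u' _ => ?_
  rw [← map_mul, ← map_mul]
  rfl

/-- **The package for one irreducible character.** -/
theorem pack_one (F : Frame P U L w) {ψ : P → ℂ} (hψ : IsIrrCharacter P ψ) (hK : Ker F ψ) {χ : G → ℂ}
    (hχ : IsIrrCharacter G χ) (h1 : classInner (fun p : P => χ p) ψ = 1) :
    ∃ β : ℂ, IsIntegral ℤ β ∧ S₁ (U := U) w ψ χ = Nat.card P * β ∧ S₂ (U := U) w ψ χ = Nat.card P * β ^ 2 := by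
  obtain ⟨m, τ, hτ, rfl⟩ := hψ
  obtain ⟨n, σ, hσ, rfl⟩ := hχ
  obtain ⟨β, hβ, h2⟩ := exists_scal (τ := τ) (σ := σ) F (fun _ => rfl) hK h1
  have h3 := trace_one_E (τ := τ) (σ := σ) (ψ := τ.character) (fun _ => rfl)
  rw [h1, mul_one] at h3
  refine ⟨β, hβ, ?_, ?_⟩
  · rw [← trace_T (τ := τ) (fun _ => rfl), h2, map_smul, h3, smul_eq_mul, mul_comm]
  · rw [← trace_T2 (τ := τ) (fun _ => rfl), mul_assoc, h2, mul_smul_comm, h2, map_smul, map_smul, h3, smul_eq_mul,
      smul_eq_mul]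
    ring

/-- the other irreducible characters -/
theorem pack_zero {ψ : P → ℂ} (hψ : IsIrrCharacter P ψ) {χ : G → ℂ}
    (hχ : IsIrrCharacter G χ) (h1 : classInner (fun p : P => χ p) ψ = 0) :
    S₁ (U := U) w ψ χ = 0 ∧ S₂ (U := U) w ψ χ = 0 := by
  obtain ⟨m, τ, hτ, rfl⟩ := hψ
  obtain ⟨n, σ, hσ, rfl⟩ := hχ
  have h2 := comp_E τ σ (T := 1) (β := 0) fun f hf x => by
    rw [eqv_zero τ σ (fun _ => rfl) h1 hf]; simp
  rw [one_mul, zero_smul] at h2
  constructor
  · rw [← trace_T (τ := τ) (fun _ => rfl), h2, mul_zero, map_zero]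
  · rw [← trace_T2 (τ := τ) (fun _ => rfl), h2, mul_zero, map_zero]

/-- the sum over all irreducible characters -/
theorem sum_S₁ [Fintype (IrrCharacter G)] (F : Frame P U L w) (ψ : P → ℂ) :
    ∑ χ : IrrCharacter G, (χ : G → ℂ) 1 * S₁ (U := U) w ψ χ = 0 := by
  classical
  unfold S₁
  simp only [Finset.mul_sum]
  rw [Finset.sum_comm]
  refine Finset.sum_eq_zero fun p _ => ?_
  rw [Finset.sum_comm]
  refine Finset.sum_eq_zero fun u _ => ?_
  have h1 : ∑ χ : IrrCharacter G, (χ : G → ℂ) 1 * (ψ p⁻¹ * (χ : G → ℂ) ((u : G) * w * p)) =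
      ψ p⁻¹ * ∑ χ : IrrCharacter G, (χ : G → ℂ) 1 * (χ : G → ℂ) ((u : G) * w * p) := by
    rw [Finset.mul_sum]
    exact Finset.sum_congr rfl fun χ _ => by ring
  rw [h1, Counting.sum_irr_one_mul, if_neg, mul_zero]
  intro h
  apply F.nmem
  have h2 : w = (u : G)⁻¹ * (p : G)⁻¹ := by
    calc w = (u : G)⁻¹ * ((u : G) * w * p) * (p : G)⁻¹ := by group
      _ = _ := by rw [h]; group
  rw [h2]
  exact P.mul_mem (P.inv_mem (F.hU u.2)) (P.inv_mem p.2)

theorem sum_S₂ [Fintype (IrrCharacter G)] (F : Frame P U L w) {ψ : P → ℂ} (hK : Ker F ψ) :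
    ∑ χ : IrrCharacter G, (χ : G → ℂ) 1 * S₂ (U := U) w ψ χ = Nat.card G * (Nat.card U * ψ 1) := by
  classical
  unfold S₂
  have h1 : ∀ (p : P) (u u' : U), ∑ χ : IrrCharacter G, (χ : G → ℂ) 1 *
      (ψ p⁻¹ * (χ : G → ℂ) ((u : G) * w * (u' * w) * p)) =
      ψ p⁻¹ * (if (u : G) * w * (u' * w) * p = 1 then (Nat.card G : ℂ) else 0) := by
    intro p u u'
    rw [← Counting.sum_irr_one_mul, Finset.mul_sum]
    exact Finset.sum_congr rfl fun χ _ => by ring
  simp only [Finset.mul_sum]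
  rw [Finset.sum_comm]
  have h2 : ∀ p : P, ∑ χ : IrrCharacter G, ∑ u : U, ∑ u' : U, (χ : G → ℂ) 1 *
      (ψ p⁻¹ * (χ : G → ℂ) ((u : G) * w * (u' * w) * p)) =
      ∑ u : U, ∑ u' : U, ψ p⁻¹ * (if (u : G) * w * (u' * w) * p = 1 then (Nat.card G : ℂ) else 0) := by
    intro p
    rw [Finset.sum_comm]
    refine Finset.sum_congr rfl fun u _ => ?_
    rw [Finset.sum_comm]
    exact Finset.sum_congr rfl fun u' _ => h1 p u u'
  simp only [h2]
  rw [Finset.sum_comm]
  have h3 : ∀ u : U, ∑ p : P, ∑ u' : U, ψ p⁻¹ *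
      (if (u : G) * w * (u' * w) * p = 1 then (Nat.card G : ℂ) else 0) = Nat.card G * ψ 1 := by
    intro u
    rw [Finset.sum_comm]
    rw [Finset.sum_eq_single (1 : U)]
    · have huP : (u : G)⁻¹ ∈ P := P.inv_mem (F.hU u.2)
      rw [Finset.sum_eq_single (⟨(u : G)⁻¹, huP⟩ : P)]
      · rw [if_pos (by rw [Subgroup.coe_one, one_mul, mul_assoc (u : G) w w, F.sq, mul_one, mul_inv_cancel])]
        rw [mul_comm]
        congr 1
        exact hK.one _ (by
          show ((u : G)⁻¹)⁻¹ ∈ U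
          rw [inv_inv]
          exact u.2)
      · intro p _ hp
        rw [if_neg, mul_zero]
        intro h
        apply hp
        apply Subtype.ext
        show (p : G) = (u : G)⁻¹
        rw [Subgroup.coe_one, one_mul, mul_assoc (u : G) w w, F.sq, mul_one] at h
        exact (inv_eq_of_mul_eq_one_right h).symm
      · intro h
        exact absurd (Finset.mem_univ _) h
    · intro u' _ hu'
      refine Finset.sum_eq_zero fun p _ => ?_
      rw [if_neg, mul_zero]
      intro h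
      apply hu'
      apply Subtype.ext
      refine F.opp u' u'.2 ?_
      have h4 : w * (u' : G) * w = (u : G)⁻¹ * (p : G)⁻¹ := by
        calc w * (u' : G) * w = (u : G)⁻¹ * ((u : G) * w * (u' * w) * p) * (p : G)⁻¹ := by group
          _ = _ := by rw [h]; group
      rw [h4]
      exact P.mul_mem (P.inv_mem (F.hU u.2)) (P.inv_mem p.2)
    · intro h
      exact absurd (Finset.mem_univ _) h
  simp only [h3]
  rw [Finset.sum_const, Finset.card_univ, nsmul_eq_mul, Nat.card_eq_fintype_card (α := U)]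
  ring

end Op

end Cfsg.Agent.H961.TF8
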