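import Cfsg.Agent.H961.TF8.Nineteen
import Cfsg.Agent.S0135

/-!
# S2452, `²F₄(8)`: both members vanish at the elements of order 19 (helper961)
-/

set_option autoImplicit false
set_option linter.unusedSectionVars false

namespace Cfsg.Agent.H961.TF8

open Cfsg Cfsg.Agent.Characters

variable {G : Type*} [Group G] [Fintype G] {P U L : Subgroup G} {w : G}

/-- `19 ∣ χ(1)`, `19 ∥ |G|` : `χ(x) = 0` -/
theorem zero_of_dvd {χ : IrrCharacter G} (h : 19 ∣ charDegree (χ : G → ℂ)) (hG : ¬ 19 ^ 2 ∣ Nat.card G) {x : G}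
    (hx : 19 ∣ orderOf x) : (χ : G → ℂ) x = 0 := by
  have hp : Fact (Nat.Prime 19) := ⟨by norm_num⟩
  refine H713.irr_zero_of_singular (p := 19) ?_ hx
  have h0 := Blocks.Basic.irr_one_eq_charDegree χ.2
  have hpos : charDegree (χ : G → ℂ) ≠ 0 := by
    obtain ⟨n, hn, h1⟩ := Core.isIrr_apply_one χ.2
    rw [h0] at h1
    have : charDegree (χ : G → ℂ) = n := by exact_mod_cast h1
    omega
  have h1 : 1 ≤ (charDegree (χ : G → ℂ)).factorization 19 := by
    rw [← hp.out.pow_dvd_iff_le_factorization hpos, pow_one]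
    exact h
  have h2 : charDegree (χ : G → ℂ) ∣ Nat.card G := by
    obtain ⟨n, ρ, hρ, h5⟩ := χ.2
    have h6 := Cfsg.Agent.S0135.result ρ
    rw [← h5, Representation.char_one, h5] at h0
    have h7 : Module.finrank ℂ (Fin n → ℂ) = charDegree (χ : G → ℂ) := by exact_mod_cast h0
    rwa [h7] at h6
  have h3 := (Nat.factorization_le_iff_dvd hpos Nat.card_pos.ne').2 h2 19
  have h4 : (Nat.card G).factorization 19 < 2 := by
    by_contra hcon
    push Not at hcon
    exact hG ((hp.out.pow_dvd_iff_le_factorization Nat.card_pos.ne').2 hcon)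
  omega

/-- **Both members vanish.** -/
theorem zero_of_two (F : Frame P U L w) (hexp : ∀ p ∈ P, p ^ 1820 ∈ U) (hcU : Nat.card U = 2 ^ 30)
    (h19 : 19 ∣ P.index) (hcop : Nat.Coprime 5461 (Nat.card G)) (hG : ¬ 19 ^ 2 ∣ Nat.card G) {ψ : P → ℂ}
    (hψ : IsIrrCharacter P ψ) (hK : Ker F ψ) {χ₁ χ₂ : IrrCharacter G}
    (hind : indFun P ψ = (χ₁ : G → ℂ) + (χ₂ : G → ℂ)) {x : G} (hx : orderOf x = 19) :
    (χ₁ : G → ℂ) x = 0 ∧ (χ₂ : G → ℂ) x = 0 :=
  ⟨zero_of_dvd (nineteen_dvd F hexp hcU h19 hcop hψ hK hind) hG (by rw [hx]),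
    zero_of_dvd (nineteen_dvd F hexp hcU h19 hcop hψ hK (by rw [hind, add_comm])) hG (by rw [hx])⟩

/-- the same for one constituent -/
theorem zero_of_over [Fintype P] (F : Frame P U L w) (hexp : ∀ p ∈ P, p ^ 1820 ∈ U) (hcU : Nat.card U = 2 ^ 30)
    (h19 : 19 ∣ P.index) (hcop : Nat.Coprime 5461 (Nat.card G)) (hG : ¬ 19 ^ 2 ∣ Nat.card G) {ψ : P → ℂ}
    (hψ : IsIrrCharacter P ψ) (hK : Ker F ψ) {a b : G → ℂ} (ha : IsIrrCharacter G a) (hb : IsIrrCharacter G b)
    (hind : indFun P ψ = a + b) {x : G} (hx : orderOf x = 19) {χ : G → ℂ} (hχ : IsIrrCharacter G χ)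
    (hover : classInner (fun p : P => χ p) ψ ≠ 0) : χ x = 0 := by
  have h := zero_of_two F hexp hcU h19 hcop hG hψ hK (χ₁ := ⟨a, ha⟩) (χ₂ := ⟨b, hb⟩) hind hx
  have h1 := OddOrderCharacters.IndRes.classInner_indFun_right P ψ (Core.isIrr_isClassFunction hχ)
  rw [hind, Core.classInner_add_right] at h1
  by_cases ea : χ = a
  · rw [ea]; exact h.1
  by_cases eb : χ = b
  · rw [eb]; exact h.2
  · rw [Core.classInner_irr_ne hχ ha ea, Core.classInner_irr_ne hχ hb eb, add_zero] at h1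
    exact absurd h1.symm hover

end Cfsg.Agent.H961.TF8
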